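import Cfsg.Agent.CharDeep.Extend
import Cfsg.Agent.CharDeep.Gallagher
import Cfsg.Agent.BG.S3Gen

/-! Dade's extension theorem, character tools: `Gd L z n χ` (a character of `L` with `χ z = -χ 1`, `2 χ(1)² = n`),
extraspecial-type 2-groups `XS E z`, and the extension steps (cyclic, Sylow, induction, inflation, products). -/

set_option autoImplicit false
set_option linter.unusedSectionVars false

namespace Cfsg.Agent.DadeX

open Subgroup Cfsg.Agent.Char Cfsg.Agent.CharDeep Cfsg.Agent.BG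
open scoped ComplexConjugate

universe u
variable {G : Type u} [Group G] [Finite G] {E H L N : Subgroup G} {z : G} {n : ℕ} {χ χ' : G → ℂ}

/-- `χ` restricts to a character of `L` with `χ z = -χ 1` and `2 χ(1)² = n`. -/
structure Gd (L : Subgroup G) (z : G) (n : ℕ) (χ : G → ℂ) : Prop where
  ch : IsCharacter L fun x => χ x
  hz : χ z = -χ 1
  deg : 2 * χ 1 ^ 2 = n

/-- There is a good character. -/
def Ext (L : Subgroup G) (z : G) (n : ℕ) : Prop := ∃ χ, Gd L z n χ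

/-- `E` is extraspecial or of order 2, with centre `{1, z}`. -/
structure XS (E : Subgroup G) (z : G) : Prop where
  zE : z ∈ E
  z1 : z ≠ 1
  z2 : z * z = 1
  pg : IsPGroup 2 E
  zc : ∀ e ∈ E, z * e = e * z
  com : ∀ e ∈ E, ∀ f ∈ E, f * e * f⁻¹ = e ∨ f * e * f⁻¹ = z * e
  cen : ∀ e ∈ E, (∀ f ∈ E, f * e * f⁻¹ = e) → e = 1 ∨ e = z

theorem exists_scalar {X : Type*} [Group X] [Finite X] {χ : X → ℂ} (h : IsCharacter X χ) {z : X}
    (hz : ‖χ z‖ = ‖χ 1‖) : ∃ ω : ℂ, ∀ x, χ (z * x) = ω * χ x := by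
  obtain ⟨n, ρ, rfl⟩ := h
  obtain ⟨ω, hω⟩ := (norm_character_eq_iff ρ z).1 (by rw [hz, Representation.char_one]; simp)
  exact ⟨ω, fun x => by simp [Representation.character, hω, ← Module.End.one_eq_id]⟩

theorem neg_of {X : Type*} [Group X] [Finite X] {χ : X → ℂ} (h : IsCharacter X χ) {z : X}
    (hz : χ z = -χ 1) (x : X) : χ (z * x) = -χ x := by
  obtain ⟨ω, hω⟩ := exists_scalar h (z := z) (by rw [hz, norm_neg])
  by_cases h1 : χ 1 = 0
  · simp [h.eq_zero_of_apply_one h1]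
  · have := hω 1
    rw [mul_one, hz] at this
    have : ω = -1 := mul_right_cancel₀ h1 (by rw [← this]; ring)
    rw [hω, this]; ring

theorem Gd.mono (h : Gd L z n χ) (hN : N ≤ L) : Gd N z n χ := ⟨h.ch.comp (inclusion hN), h.hz, h.deg⟩

theorem Gd.cj (h : Gd L z n χ) {g x : G} (hg : g ∈ L) (hx : x ∈ L) : χ (g * x * g⁻¹) = χ x :=
  h.ch.isClassFunction ⟨x, hx⟩ ⟨g, hg⟩

theorem Ext.mono (h : Ext L z n) (hN : N ≤ L) : Ext N z n := h.imp fun _ h => h.mono hN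

theorem gd_of {θ : L → ℂ} (h : IsCharacter L θ) (hz : z ∈ L) (h1 : θ ⟨z, hz⟩ = -θ 1) (h2 : 2 * θ 1 ^ 2 = n) :
    Gd L z n (extendByZero L θ) :=
  ⟨by simpa only [extendByZero_coe] using h, by rw [extendByZero_of_mem _ _ hz, extendByZero_one, h1],
    by rw [extendByZero_one, h2]⟩

namespace XS
variable (h : XS E z)
include h

theorem fix {g : G} (hg : g ∈ N[E]) : g * z * g⁻¹ = z := by
  refine (h.cen _ ((mem_normalizer_iff.1 hg z).1 h.zE) fun f hf => ?_).resolve_left fun e => h.z1 (by simpa using e)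
  have := h.zc _ ((mem_normalizer_iff.1 (inv_mem hg) f).1 hf)
  calc f * (g * z * g⁻¹) * f⁻¹ = g * (g⁻¹ * f * g⁻¹⁻¹ * z) * g⁻¹ * f⁻¹ := by group
    _ = g * z * g⁻¹ := by rw [← this]; group

theorem vanish (hc : IsCharacter E fun x => χ x) (hz : χ z = -χ 1) {e : G} (he : e ∈ E) (h1 : e ≠ 1) (h2 : e ≠ z) :
    χ e = 0 := by
  obtain ⟨f, hf, e1⟩ : ∃ f ∈ E, f * e * f⁻¹ ≠ e := by
    by_contra! hn; exact (h.cen e he hn).elim h1 h2
  have e2 : χ (f * e * f⁻¹) = χ e := hc.isClassFunction ⟨e, he⟩ ⟨f, hf⟩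
  have e3 : χ (z * e) = -χ e := neg_of hc (z := ⟨z, h.zE⟩) hz ⟨e, he⟩
  rw [(h.com e he f hf).resolve_left e1, e3] at e2
  linear_combination (-1 / 2 : ℂ) * e2

theorem inner [Fintype E] (hc : IsCharacter E fun x => χ x) (hz : χ z = -χ 1) :
    (#E : ℂ) * classInner (fun x : E => χ x) (fun x => χ x) = 2 * χ 1 ^ 2 := by
  classical
  have c1 : conj (χ 1) = χ 1 := hc.conj_apply_one
  rw [card_mul_classInner, Finset.sum_eq_add (1 : E) ⟨z, h.zE⟩ (fun e => h.z1 (congrArg Subtype.val e).symm)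
    (fun x _ hx => by rw [h.vanish hc hz x.2 (fun e => hx.1 (Subtype.ext e)) fun e => hx.2 (Subtype.ext e), zero_mul])
    (by simp) (by simp)]
  simp only [OneMemClass.coe_one, hz, map_neg, c1]
  ring

theorem irr0 (hg : Gd E z #E χ) : IsIrrCharacter E fun x => χ x := by
  haveI := Fintype.ofFinite E
  refine hg.ch.isIrrCharacter_of_classInner_self (mul_left_cancel₀ (natCard_cast_ne_zero (G := E)) ?_)
  rw [h.inner hg.ch hg.hz, hg.deg, mul_one]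

theorem irr (hE : E ≤ L) (hg : Gd L z #E χ) : IsIrrCharacter L fun x => χ x :=
  isIrr_of_isIrr_res (E.subgroupOf L) hg.ch ((h.irr0 (hg.mono hE)).comp_equiv (subgroupOfEquivOfLe hE))

theorem gd_of_irr {θ : E → ℂ} (hθ : IsIrrCharacter E θ) (h1 : θ ⟨z, h.zE⟩ ≠ θ 1) : Gd E z #E (extendByZero E θ) := by
  haveI := Fintype.ofFinite E
  obtain ⟨ω, hω⟩ := exists_scalar hθ.isCharacter (z := ⟨z, h.zE⟩) (hθ.isCharacter.mem_charCenter.1
    (hθ.center_le_charCenter (mem_center_iff.2 fun e => Subtype.ext (h.zc e e.2).symm)))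
  have e1 := hω 1
  have e2 := hω ⟨z, h.zE⟩
  rw [mul_one] at e1
  rw [show (⟨z, h.zE⟩ : E) * ⟨z, h.zE⟩ = 1 from Subtype.ext h.z2, e1] at e2
  have e3 : (ω - 1) * ((ω + 1) * θ 1) = 0 := by linear_combination -e2
  have e4 : θ ⟨z, h.zE⟩ = -θ 1 := by
    rcases mul_eq_zero.1 e3 with e | e
    · exact absurd (by rw [e1]; linear_combination θ 1 * e) h1
    · rw [e1]; linear_combination e
  have hc : IsCharacter E fun x => extendByZero E θ x := by simpa only [extendByZero_coe] using hθ.isCharacter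
  have hz : extendByZero E θ z = -extendByZero E θ 1 := by rw [extendByZero_of_mem _ _ h.zE, extendByZero_one, e4]
  refine ⟨hc, hz, ?_⟩
  rw [← h.inner hc hz]
  simp only [extendByZero_coe]
  rw [hθ.classInner_self, mul_one]

theorem ext0 : Ext E z #E :=
  let ⟨_, h1, h2⟩ := exists_irr_apply_ne (g := (⟨z, h.zE⟩ : E)) fun e => h.z1 (congrArg Subtype.val e)
  ⟨_, h.gd_of_irr h1 h2⟩

theorem uniq (h1 : Gd E z n χ) (h2 : Gd E z n χ') {e : G} (he : e ∈ E) : χ e = χ' e := by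
  have e1 : χ 1 = χ' 1 := by
    obtain ⟨a, ha⟩ := h1.ch.exists_nat_apply_one
    obtain ⟨b, hb⟩ := h2.ch.exists_nat_apply_one
    have h3 := h1.deg.trans h2.deg.symm
    simp only [OneMemClass.coe_one] at ha hb
    rw [ha, hb] at h3 ⊢
    have : 2 * a ^ 2 = 2 * b ^ 2 := by exact_mod_cast h3
    rw [show a = b by nlinarith [Nat.pow_left_injective (n := 2) (by omega) (show a ^ 2 = b ^ 2 by omega)]]
  by_cases c1 : e = 1
  · rw [c1, e1]
  by_cases c2 : e = z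
  · rw [c2, h1.hz, h2.hz, e1]
  rw [h.vanish h1.ch h1.hz he c1 c2, h.vanish h2.ch h2.hz he c1 c2]

theorem inv (h1 : Gd E z n χ) {g : G} (hg : g ∈ N[E]) {e : G} (he : e ∈ E) : χ (g * e * g⁻¹) = χ e :=
  h.uniq (χ := fun x => χ (g * x * g⁻¹)) ⟨h1.ch.comp (((MulAut.conj g).toMonoidHom.comp E.subtype).codRestrict E
    fun x => (mem_normalizer_iff.1 hg x).1 x.2), by simp only [h.fix hg, h1.hz]; simp, by simpa using h1.deg⟩ h1 he

theorem ext_cyc (hE : E ≤ N) (hN : N ≤ L) (hn : L ≤ N[N]) (hg : Gd N z #E χ)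
    (hi : ∀ g ∈ L, ∀ x ∈ N, χ (g * x * g⁻¹) = χ x) {s : G} (hs : s ∈ L)
    (hc : ∀ g ∈ L, ∃ k : ℤ, (s ^ k)⁻¹ * g ∈ N) : Ext L z #E := by
  haveI : (N.subgroupOf L).Normal := normal_subgroupOf_of_le_normalizer hn
  have cyc : IsCyclic (L ⧸ N.subgroupOf L) := ⟨⟨((⟨s, hs⟩ : L) : L ⧸ N.subgroupOf L), fun q => by
    obtain ⟨g, rfl⟩ := QuotientGroup.mk_surjective q
    obtain ⟨k, hk⟩ := hc g g.2
    exact ⟨k, by
      show ((⟨s, hs⟩ : L) : L ⧸ N.subgroupOf L) ^ k = _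
      rw [← QuotientGroup.mk_zpow, QuotientGroup.eq]; exact hk⟩⟩⟩
  obtain ⟨ψ, h1, h2⟩ := exists_extension_of_cyclic (N.subgroupOf L) cyc
    ((h.irr hE hg).comp_equiv (subgroupOfEquivOfLe hN)) fun g => funext fun x => hi g g.2 x x.2
  have e1 : ψ 1 = χ 1 := h2 1
  exact ⟨_, gd_of h1.isCharacter (hN (hE h.zE)) ((h2 ⟨⟨z, hN (hE h.zE)⟩, hE h.zE⟩).trans (e1 ▸ hg.hz)) (e1 ▸ hg.deg)⟩

theorem ext_syl (hE : E ≤ N) (hN : N ≤ L) (hn : L ≤ N[E]) (ho : ¬ 2 ∣ N.relIndex L) (hx : Ext N z #E) : Ext L z #E := by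
  obtain ⟨χ, hg⟩ := hx
  have hL := hE.trans hN
  haveI : (E.subgroupOf L).Normal := normal_subgroupOf_of_le_normalizer hn
  have hθ := (h.irr0 (hg.mono hE)).comp_equiv (subgroupOfEquivOfLe hL)
  have hi : ∀ g, conjN (E.subgroupOf L) g (fun x => χ x.1.1) = fun x => χ x.1.1 := fun g =>
    funext fun x => h.inv (hg.mono hE) (hn g.2) x.2
  obtain ⟨ψ, h1, h2⟩ := exists_extension_of_sylow (E.subgroupOf L) hθ hi fun p hp => by
    by_cases p2 : p = 2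
    · exact ⟨N.subgroupOf L, fun _ hx => hE hx, fun x => χ x.1.1, p2 ▸ ho,
        hg.ch.comp (subgroupOfEquivOfLe hN).toMonoidHom, fun _ => rfl⟩
    haveI := Fact.mk hp
    obtain ⟨S⟩ : Nonempty (Sylow p L) := inferInstance
    have hP : E.subgroupOf L ≤ E.subgroupOf L ⊔ S := le_sup_left
    obtain ⟨a, ha⟩ := IsPGroup.iff_card.1 (h.pg.of_equiv ((subgroupOfEquivOfLe hL).symm.trans
      (subgroupOfEquivOfLe hP).symm))
    obtain ⟨b, hb⟩ := IsPGroup.iff_card.1 S.isPGroup'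
    obtain ⟨η, η1, η2, -⟩ := exists_extension_of_coprime_card ((E.subgroupOf L).subgroupOf (E.subgroupOf L ⊔ S))
      (isIrr_subOf hP hθ) (fun g => funext fun x => h.inv (hg.mono hE) (hn g.1.2) x.2) (by
        have : (E.subgroupOf L).relIndex (E.subgroupOf L ⊔ S) ∣ p ^ b := by
          rw [relIndex_sup_left, ← hb]; exact relIndex_dvd_card _ _
        rw [ha]
        exact Nat.Coprime.coprime_dvd_left this
          (Nat.Coprime.pow _ _ ((Nat.coprime_primes hp Nat.prime_two).2 p2)))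
    exact ⟨_, hP, η, fun e => S.not_dvd_index (e.trans (index_dvd_of_le le_sup_right)), η1.isCharacter,
      fun x => η2 ⟨⟨x, hP x.2⟩, x.2⟩⟩
  have e1 : ψ 1 = χ 1 := h2 1
  exact ⟨_, gd_of h1.isCharacter (hL h.zE) ((h2 ⟨⟨z, hL h.zE⟩, h.zE⟩).trans (e1 ▸ hg.hz)) (e1 ▸ hg.deg)⟩

end XS

theorem Ext.ind (hN : N ≤ L) (hz : z ∈ N) (hc : ∀ g ∈ L, g * z * g⁻¹ = z) (h : Ext N z n) :
    Ext L z (n * N.relIndex L ^ 2) := by
  classical
  obtain ⟨χ, hg⟩ := h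
  haveI := Fintype.ofFinite L
  have h1 := isCharacter_indFun (N.subgroupOf L) (hg.ch.comp (subgroupOfEquivOfLe hN).toMonoidHom)
  refine ⟨_, gd_of h1 (hN hz) ?_ ?_⟩
  · rw [indFun_apply', indFun_apply', ← mul_neg, ← Finset.sum_neg_distrib]
    refine congrArg _ (Finset.sum_congr rfl fun x _ => ?_)
    rw [show x * ⟨z, hN hz⟩ * x⁻¹ = ⟨z, hN hz⟩ from Subtype.ext (hc x x.2), mul_one, mul_inv_cancel, extendByZero_one,
      extendByZero_of_mem _ _ (show (⟨z, hN hz⟩ : L) ∈ N.subgroupOf L from hz)]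
    exact hg.hz
  · rw [indFun_one]
    have := hg.deg
    simp only [map_one, OneMemClass.coe_one, relIndex]
    push_cast
    linear_combination ((N.subgroupOf L).index : ℂ) ^ 2 * this

theorem Ext.inf {G' : Type*} [Group G'] [Finite G'] {L' : Subgroup G'} (f : L →* G') (hf : ∀ x, f x ∈ L') (hz : z ∈ L)
    (h : Ext L' (f ⟨z, hz⟩) n) : Ext L z n :=
  let ⟨χ, hg⟩ := h
  ⟨_, gd_of (θ := fun x => χ (f x)) (hg.ch.comp (f.codRestrict L' hf)) hz (by simpa using hg.hz) (by simpa using hg.deg)⟩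

theorem exists_prod {E₁ E₂ : Subgroup G} {χ₁ χ₂ : G → ℂ} {n₁ n₂ : ℕ} (h1 : H ≤ N[E₁]) (h2 : H ≤ N[E₂])
    (hc : ∀ a ∈ E₁, ∀ b ∈ E₂, a * b = b * a) (hz1 : z ∈ E₁) (hz2 : z ∈ E₂)
    (hd : ∀ a ∈ E₁, ∀ b ∈ E₂, ∀ x ∈ H, a * b * x = 1 → x = 1 ∧ (a = 1 ∧ b = 1 ∨ a = z ∧ b = z))
    (hL : ∀ g, g ∈ L ↔ ∃ a ∈ E₁, ∃ b ∈ E₂, ∃ x ∈ H, g = a * b * x) (hn : n₁ * n₂ = 2 * n)
    (g1 : Gd (E₁ ⊔ H) z n₁ χ₁) (g2 : Gd (E₂ ⊔ H) z n₂ χ₂) :
    ∃ χ, Gd L z n χ ∧ ∀ a ∈ E₁, ∀ b ∈ E₂, ∀ x ∈ H, χ (a * b * x) = χ₁ (a * x) * χ₂ (b * x) := by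
  let X : Subgroup (G × G × G) :=
    { carrier := {p | ∃ a ∈ E₁, ∃ b ∈ E₂, ∃ x ∈ H, p = (a * x, b * x, a * b * x)}
      one_mem' := ⟨1, one_mem _, 1, one_mem _, 1, one_mem _, by simp; rfl⟩
      mul_mem' := by
        rintro _ _ ⟨a, ha, b, hb, x, hx, rfl⟩ ⟨a', ha', b', hb', x', hx', rfl⟩
        have m1 := (mem_normalizer_iff.1 (h1 hx) a').1 ha'
        refine ⟨a * (x * a' * x⁻¹), mul_mem ha m1, b * (x * b' * x⁻¹),
          mul_mem hb ((mem_normalizer_iff.1 (h2 hx) b').1 hb'), x * x', mul_mem hx hx', ?_⟩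
        simp only [Prod.mk_mul_mk, Prod.mk.injEq]
        refine ⟨by group, by group, ?_⟩
        calc a * b * x * (a' * b' * x') = a * (b * (x * a' * x⁻¹)) * (x * b' * x⁻¹) * (x * x') := by group
          _ = _ := by rw [← hc _ m1 b hb]; group
      inv_mem' := by
        rintro _ ⟨a, ha, b, hb, x, hx, rfl⟩
        refine ⟨x⁻¹ * a⁻¹ * x⁻¹⁻¹, (mem_normalizer_iff.1 (h1 (inv_mem hx)) _).1 (inv_mem ha), x⁻¹ * b⁻¹ * x⁻¹⁻¹,
          (mem_normalizer_iff.1 (h2 (inv_mem hx)) _).1 (inv_mem hb), x⁻¹, inv_mem hx, ?_⟩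
        simp only [Prod.inv_mk, Prod.mk.injEq]
        refine ⟨by group, by group, ?_⟩
        rw [hc a ha b hb]; group }
  let p1 : X →* (E₁ ⊔ H : Subgroup G) := ((MonoidHom.fst _ _).comp X.subtype).codRestrict _ (by
    rintro ⟨_, a, ha, b, hb, x, hx, rfl⟩; exact mul_mem_sup ha hx)
  let p2 : X →* (E₂ ⊔ H : Subgroup G) := (((MonoidHom.fst _ _).comp (MonoidHom.snd _ _)).comp X.subtype).codRestrict _ (by
    rintro ⟨_, a, ha, b, hb, x, hx, rfl⟩; exact mul_mem_sup hb hx)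
  let μ : X →* L := (((MonoidHom.snd _ _).comp (MonoidHom.snd _ _)).comp X.subtype).codRestrict _ (by
    rintro ⟨_, a, ha, b, hb, x, hx, rfl⟩; exact (hL _).2 ⟨a, ha, b, hb, x, hx, rfl⟩)
  have hμ : Function.Surjective μ := fun g =>
    let ⟨a, ha, b, hb, x, hx, e⟩ := (hL g).1 g.2; ⟨⟨_, a, ha, b, hb, x, hx, rfl⟩, Subtype.ext e.symm⟩
  obtain ⟨ψ, ψ1, ψ2⟩ := ((g1.ch.comp p1).mul (g2.ch.comp p2)).exists_quotient μ.ker (by
    rintro ⟨_, a, ha, b, hb, x, hx, rfl⟩ hk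
    show χ₁ (a * x) * χ₂ (b * x) = χ₁ 1 * χ₂ 1
    obtain ⟨rfl, ⟨rfl, rfl⟩ | ⟨rfl, rfl⟩⟩ := hd a ha b hb x hx (congrArg Subtype.val hk)
    · simp
    · simp [g1.hz, g2.hz])
  have key : ∀ a (ha : a ∈ E₁) b (hb : b ∈ E₂) x (hx : x ∈ H), ψ ((QuotientGroup.quotientKerEquivOfSurjective μ hμ).symm
      ⟨a * b * x, (hL _).2 ⟨a, ha, b, hb, x, hx, rfl⟩⟩) = χ₁ (a * x) * χ₂ (b * x) := fun a ha b hb x hx => by
    refine Eq.trans (congrArg ψ ?_) (ψ2 ⟨_, a, ha, b, hb, x, hx, rfl⟩)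
    rw [MulEquiv.symm_apply_eq]; rfl
  have hv : ∀ a ∈ E₁, ∀ b ∈ E₂, ∀ x ∈ H, extendByZero L (fun g => ψ ((QuotientGroup.quotientKerEquivOfSurjective μ hμ).symm g))
      (a * b * x) = χ₁ (a * x) * χ₂ (b * x) := fun a ha b hb x hx => by
    rw [extendByZero_of_mem _ _ ((hL _).2 ⟨a, ha, b, hb, x, hx, rfl⟩), key a ha b hb x hx]
  have v1 := hv 1 (one_mem _) 1 (one_mem _) 1 (one_mem _)
  have v2 := hv z hz1 1 (one_mem _) 1 (one_mem _)
  simp only [mul_one] at v1 v2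
  refine ⟨_, ⟨by simp only [extendByZero_coe]; exact ψ1.comp (QuotientGroup.quotientKerEquivOfSurjective μ hμ).symm.toMonoidHom,
    by rw [v1, v2, g1.hz]; ring, ?_⟩, hv⟩
  have e : (n₁ : ℂ) * n₂ = 2 * n := by exact_mod_cast hn
  rw [v1]
  linear_combination (1 / 2 : ℂ) * e + (χ₂ 1 ^ 2) * g1.deg + (n₁ / 2 : ℂ) * g2.deg

end Cfsg.Agent.DadeX
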