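import Cfsg.Agent.DadeX.A

/-! Dade's extension theorem, group tools: perpendicular subgroups, central decompositions `Dec`, the setting `St`
and its quotients. -/

set_option autoImplicit false
set_option linter.unusedSectionVars false

namespace Cfsg.Agent.DadeX

open Subgroup Cfsg.Agent.BG

universe u
variable {G : Type u} [Group G] [Finite G] {E H K L U A E₁ E₂ : Subgroup G} {z : G} {n : ℕ}

theorem sum_sign (A : Subgroup G) [Fintype A] (s : G → ℤ) (h1 : ∀ a ∈ A, s a = 1 ∨ s a = -1)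
    (h2 : ∀ a ∈ A, ∀ b ∈ A, s (a * b) = s a * s b) [Decidable (∀ a ∈ A, s a = 1)] :
    ∑ a : A, s a = if ∀ a ∈ A, s a = 1 then (#A : ℤ) else 0 := by
  split_ifs with h
  · rw [Finset.sum_congr rfl fun (a : A) _ => h a a.2]; simp
  · push Not at h
    obtain ⟨a, ha, e⟩ := h
    have e1 := (h1 a ha).resolve_left e
    have := Equiv.sum_comp (Equiv.mulLeft (⟨a, ha⟩ : A)) fun x : A => s x
    simp only [Equiv.coe_mulLeft, coe_mul] at this
    rw [Finset.sum_congr rfl fun (x : A) _ => h2 a ha x x.2, ← Finset.mul_sum, e1] at this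
    omega

namespace XS
variable (h : XS E z)
include h

theorem mem_Z {x : G} : x ∈ zpowers z ↔ x = 1 ∨ x = z := by
  refine ⟨fun hx => ?_, by rintro (rfl | rfl); exacts [one_mem _, mem_zpowers _]⟩
  have := (orderOf_eq_prime (p := 2) (by rw [pow_two, h.z2]) h.z1)
  obtain ⟨k, rfl⟩ := mem_powers_iff_mem_zpowers.2 hx
  show z ^ k = 1 ∨ z ^ k = z
  rw [← pow_mod_orderOf, this]
  rcases Nat.mod_two_eq_zero_or_one k with e | e <;> simp [e]

theorem card_Z : #(zpowers z) = 2 := by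
  rw [Nat.card_zpowers, orderOf_eq_prime (p := 2) (by rw [pow_two, h.z2]) h.z1]

theorem ZE : zpowers z ≤ E := zpowers_le.2 h.zE

theorem Zc (hA : A ≤ N[E]) : zpowers z ≤ C[A] := zpowers_le.2 (mem_cent.2 fun a ha => by
  rw [← mul_inv_eq_iff_eq_mul, h.fix (hA ha)])

theorem cenZ : E ⊓ C[E] ≤ zpowers z := fun e he =>
  h.mem_Z.2 (h.cen e he.1 fun f hf => by rw [mem_cent.1 he.2 f hf, mul_inv_cancel_right])

theorem comZ : ⁅E, E⁆ ≤ zpowers z := commutator_le.2 fun f hf e he => h.mem_Z.2 (by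
  rw [commutatorElement_def]
  rcases h.com e he f hf with e1 | e1 <;> simp [e1])

theorem card_perp (hU : U ≤ E) (hz : z ∈ U) : #U * #(E ⊓ C[U] : Subgroup G) = 2 * #E := by
  classical
  haveI := Fintype.ofFinite E
  haveI := Fintype.ofFinite U
  let s : G → G → ℤ := fun x y => if x * y = y * x then 1 else -1
  have s1 : ∀ x y, s x y = 1 ∨ s x y = -1 := fun x y => by simp only [s]; split_ifs <;> simp
  have s2 : ∀ x y, s x y = 1 ↔ x * y = y * x := fun x y => by simp only [s]; split_ifs with c <;> simp [c]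
  have s3 : ∀ x y, s x y = s y x := fun x y => by simp only [s, eq_comm]
  have k : ∀ x ∈ E, ∀ a ∈ E, a * x ≠ x * a → a * x = z * (x * a) := fun x hx a ha c => by
    rcases h.com x hx a ha with e | e
    · exact absurd (mul_inv_eq_iff_eq_mul.1 e) c
    · rw [mul_inv_eq_iff_eq_mul.1 e, mul_assoc]
  have zz : ∀ y : G, z * y ≠ y := fun y e => h.z1 (by simpa using e)
  have s4 : ∀ x ∈ E, ∀ a ∈ E, ∀ b ∈ E, s (a * b) x = s a x * s b x := fun x hx a ha b hb => by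
    by_cases c1 : a * x = x * a <;> by_cases c2 : b * x = x * b
    · have : a * b * x = x * (a * b) := by rw [mul_assoc, c2, ← mul_assoc, c1, mul_assoc]
      simp [s, c1, c2, this]
    · have : a * b * x = z * (x * (a * b)) := by
        rw [mul_assoc, k x hx b hb c2, ← mul_assoc, ← h.zc a ha, mul_assoc, ← mul_assoc a, c1, mul_assoc]
      simp [s, c1, c2, this, zz]
    · have : a * b * x = z * (x * (a * b)) := by
        rw [mul_assoc, c2, ← mul_assoc, k x hx a ha c1]; group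
      simp [s, c1, c2, this, zz]
    · have : a * b * x = x * (a * b) := by
        rw [mul_assoc, k x hx b hb c2, ← mul_assoc, ← h.zc a ha, mul_assoc, ← mul_assoc a, k x hx a ha c1,
          ← mul_assoc, ← mul_assoc, h.z2]; group
      simp [s, c1, c2, this]
  have e1 : ∀ u : U, ∑ e : E, s e u = if u.1 ∈ zpowers z then (#E : ℤ) else 0 := fun u => by
    rw [sum_sign E (fun e => s e u) (fun _ _ => s1 _ _) fun a ha b hb => s4 u (hU u.2) a ha b hb]
    refine if_congr ⟨fun c => h.cenZ ⟨hU u.2, mem_cent.2 fun a ha => (s2 _ _).1 (c a ha)⟩,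
      fun c a ha => (s2 _ _).2 (mem_cent.1 (h.Zc (normG E) c) a ha)⟩ rfl rfl
  have e2 : ∀ e : E, ∑ u : U, s e u = if e.1 ∈ C[U] then (#U : ℤ) else 0 := fun e => by
    rw [Finset.sum_congr rfl fun (u : U) _ => s3 e u,
      sum_sign U (fun u => s u e) (fun _ _ => s1 _ _) fun a ha b hb => s4 e e.2 a (hU ha) b (hU hb)]
    exact if_congr ⟨fun c => mem_cent.2 fun a ha => (s2 _ _).1 (c a ha), fun c a ha => (s2 _ _).2 (mem_cent.1 c a ha)⟩
      rfl rfl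
  have cnt : ∀ (X Y : Subgroup G) [Fintype X] (c : ℤ), ∑ x : X, (if x.1 ∈ Y then c else 0) = #(X ⊓ Y : Subgroup G) * c := by
    intro X Y _ c
    rw [← Finset.sum_filter, Finset.sum_const, nsmul_eq_mul, ← Fintype.card_subtype, ← Nat.card_eq_fintype_card,
      ← card_subgroupOf (inf_le_left : X ⊓ Y ≤ X), inf_subgroupOf_left]
    rfl
  have := Finset.sum_comm (s := Finset.univ) (t := Finset.univ) (f := fun (u : U) (e : E) => s e u)
  rw [Finset.sum_congr rfl fun u _ => e1 u, Finset.sum_congr rfl fun e _ => e2 e, cnt, cnt,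
    inf_eq_right.2 (zpowers_le.2 hz), h.card_Z] at this
  have : 2 * #E = #(E ⊓ C[U] : Subgroup G) * #U := by exact_mod_cast this
  rw [this, mul_comm]

theorem z_perp (hU : U ≤ E) : z ∈ E ⊓ C[U] := ⟨h.zE, h.Zc (hU.trans (normG E)) (mem_zpowers z)⟩

theorem perp_perp (hU : U ≤ E) (hz : z ∈ U) : E ⊓ C[(E ⊓ C[U] : Subgroup G)] = U := by
  refine (eq_of_le_of_card_ge (le_inf hU (cents_symm inf_le_right)) (le_of_eq ?_)).symm
  have e1 := h.card_perp hU hz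
  have e2 := h.card_perp inf_le_left (h.z_perp hU)
  rw [← e1, mul_comm] at e2
  exact Nat.eq_of_mul_eq_mul_right (cardG_pos _) e2

theorem sub (hU : U ≤ E) (hz : z ∈ U) (hc : U ⊓ C[U] ≤ zpowers z) : XS U z :=
  ⟨hz, h.z1, h.z2, h.pg.to_le hU, fun e he => h.zc e (hU he), fun e he f hf => h.com e (hU he) f (hU hf),
    fun e he c => h.mem_Z.1 (hc ⟨he, mem_cent.2 fun f hf => mul_inv_eq_iff_eq_mul.1 (c f hf)⟩)⟩

end XS

/-- `E` is the central product of `E₁` and `E₂`. -/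
structure Dec (E E₁ E₂ : Subgroup G) (z : G) : Prop where
  z1 : z ∈ E₁
  z2 : z ∈ E₂
  cc : E₁ ≤ C[E₂]
  sup : E₁ ⊔ E₂ = E

namespace Dec
variable (d : Dec E E₁ E₂ z)
include d

theorem symm : Dec E E₂ E₁ z := ⟨d.z2, d.z1, cents_symm d.cc, sup_comm E₁ E₂ ▸ d.sup⟩
theorem le : E₁ ≤ E := d.sup ▸ le_sup_left
theorem cen (h : XS E z) : E₁ ⊓ C[E₁] ≤ zpowers z :=
  le_trans (le_inf (inf_le_left.trans d.le) (by
    rw [← d.sup, cent_sup]; exact le_inf inf_le_right (inf_le_left.trans d.cc))) h.cenZ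
theorem xs (h : XS E z) : XS E₁ z := h.sub d.le d.z1 (d.cen h)
theorem inf (h : XS E z) : E₁ ⊓ E₂ = zpowers z :=
  le_antisymm ((inf_le_inf_left _ (cents_symm d.cc)).trans (d.cen h)) (zpowers_le.2 ⟨d.z1, d.z2⟩)
theorem card (h : XS E z) : #E₁ * #E₂ = 2 * #E := by
  rw [← card_sup_mul_inf (.inl (cents_norm d.cc)), d.sup, d.inf h, h.card_Z, mul_comm]

theorem prod (h : XS E z) (hd : ∀ x ∈ E, x ∈ H → x = 1) (h1 : H ≤ N[E₁]) (h2 : H ≤ N[E₂]) {χ₁ χ₂ : G → ℂ}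
    (g1 : Gd (E₁ ⊔ H) z #E₁ χ₁) (g2 : Gd (E₂ ⊔ H) z #E₂ χ₂) :
    ∃ χ, Gd (E ⊔ H) z #E χ ∧ (∀ a ∈ E₁, ∀ b ∈ E₂, ∀ x ∈ H, χ (a * b * x) = χ₁ (a * x) * χ₂ (b * x)) ∧
      ∀ g ∈ E ⊔ H, ∃ a ∈ E₁, ∃ b ∈ E₂, ∃ x ∈ H, g = a * b * x := by
  have hL : ∀ g, g ∈ E ⊔ H ↔ ∃ a ∈ E₁, ∃ b ∈ E₂, ∃ x ∈ H, g = a * b * x := fun g => by
    rw [mem_sup_norml (d.sup ▸ normsY h1 h2)]
    refine ⟨fun ⟨e, he, x, hx, e1⟩ => ?_, fun ⟨a, ha, b, hb, x, hx, e⟩ => ⟨_, mul_mem (d.le ha) (d.symm.le hb), x, hx, e⟩⟩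
    obtain ⟨a, ha, b, hb, rfl⟩ := (mem_sup_normr (cents_norm d.cc)).1 (d.sup ▸ he)
    exact ⟨a, ha, b, hb, x, hx, e1⟩
  obtain ⟨χ, c1, c2⟩ := exists_prod h1 h2 (le_cent_iff.1 d.cc) d.z1 d.z2 (fun a ha b hb x hx e => by
    have m := mul_mem (d.le ha) (d.symm.le hb)
    have e1 := hd _ m (eq_inv_of_mul_eq_one_left e ▸ inv_mem hx)
    refine ⟨by simpa [e1] using e, ?_⟩
    rcases h.mem_Z.1 ((d.inf h).le ⟨ha, eq_inv_of_mul_eq_one_left e1 ▸ E₂.inv_mem hb⟩) with rfl | rfl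
    · exact .inl ⟨rfl, by simpa using e1⟩
    · exact .inr ⟨rfl, mul_left_cancel (e1.trans h.z2.symm)⟩) hL (d.card h) g1 g2
  exact ⟨χ, c1, c2, fun g => (hL g).1⟩

end Dec

theorem XS.dec (h : XS E z) (hU : U ≤ E) (hz : z ∈ U) (hc : U ⊓ C[U] ≤ zpowers z) : Dec E U (E ⊓ C[U]) z := by
  refine ⟨hz, h.z_perp hU, cents_symm inf_le_right, eq_of_le_of_card_ge (sup_le hU inf_le_left) ?_⟩
  have e1 := card_sup_mul_inf (A := U) (B := E ⊓ C[U]) (.inr (cents_norm inf_le_right))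
  have e2 := card_le_card ((inf_le_inf_left U (inf_le_right : E ⊓ C[U] ≤ _)).trans hc)
  rw [h.card_perp hU hz] at e1
  rw [h.card_Z] at e2
  nlinarith

/-- The setting of Dade's theorem. -/
structure St (E H K : Subgroup G) (z : G) : Prop extends XS E z where
  hn : H ≤ N[E]
  hd : ∀ x ∈ E, x ∈ H → x = 1
  KH : K ≤ H
  nK : H ≤ N[K]
  odd : Odd #K
  fx : E ⊓ C[K] ≤ zpowers z

theorem cop (hU : IsPGroup 2 U) (ho : Odd #K) : (#U).Coprime #K := by
  obtain ⟨a, ha⟩ := IsPGroup.iff_card.1 hU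
  rw [ha]; exact Nat.Coprime.pow_left _ (Nat.coprime_two_left.2 ho)

namespace St
variable (h : St E H K z)
include h

theorem sub {H₀ : Subgroup G} (hU : U ≤ E) (hx : XS U z) (h0 : H₀ ≤ H) (h1 : K ≤ H₀) (h2 : H₀ ≤ N[U]) : St U H₀ K z :=
  ⟨hx, h2, fun x a b => h.hd x (hU a) (h0 b), h1, h0.trans h.nK, h.odd, (inf_le_inf_right _ hU).trans h.fx⟩

theorem card_sup {H₀ : Subgroup G} (hU : U ≤ E) (h0 : H₀ ≤ H) (h2 : H₀ ≤ N[U]) : #(U ⊔ H₀ : Subgroup G) = #U * #H₀ := by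
  rw [← card_sup_mul_inf (.inr h2), show U ⊓ H₀ = ⊥ from eq_bot_iff.2 fun x hx => h.hd x (hU hx.1) (h0 hx.2), card_bot, mul_one]

theorem quo (hU : U ≤ E) (zU : z ∈ U) (nU : H ≤ N[U]) (nA : U ⊔ H ≤ N[A]) (hA : A ≤ U ∨ A ≤ H) (zA : z ∉ A)
    (hc : ∀ e ∈ U, (∀ f ∈ U, e⁻¹ * (f * e * f⁻¹) ∈ A) → e ∈ A ∨ z * e ∈ A) :
    St (U /ᵍ A) (H /ᵍ A) (K /ᵍ A) (coset A z) := by
  have n1 : U ≤ N[A] := le_sup_left.trans nA
  have n2 : H ≤ N[A] := le_sup_right.trans nA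
  have cj : ∀ e ∈ U, ∀ f ∈ U, coset A f * coset A e * (coset A f)⁻¹ = coset A (f * e * f⁻¹) := fun e he f hf => by
    rw [coset_mul (mul_mem (n1 hf) (n1 he)) (inv_mem (n1 hf)), coset_mul (n1 hf) (n1 he), coset_inv (n1 hf)]
  refine ⟨⟨mem_quotient (n1 zU) zU, fun e => zA ((coset_eq_one (n1 zU)).1 e),
    by rw [← coset_mul (n1 zU) (n1 zU), h.z2, coset_one], (h.pg.to_le hU).quo A, fun e he' => ?_, fun e he' f hf' => ?_,
    fun e he' c => ?_⟩, quotient_norms A nU, fun x h1 h2 => ?_, quotientS A h.KH, quotient_norms A h.nK,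
    quotient_odd A h.odd, ?_⟩
  · obtain ⟨e, he, hn, rfl⟩ := mem_quotient_iff.1 he'
    rw [← coset_mul (n1 zU) hn, ← coset_mul hn (n1 zU), h.zc e (hU he)]
  · obtain ⟨e, he, hn, rfl⟩ := mem_quotient_iff.1 he'
    obtain ⟨f, hf, -, rfl⟩ := mem_quotient_iff.1 hf'
    rw [cj e he f hf, ← coset_mul (n1 zU) hn]
    exact (h.com e (hU he) f (hU hf)).imp (congrArg _) (congrArg _)
  · obtain ⟨e, he, hn, rfl⟩ := mem_quotient_iff.1 he'
    refine (hc e he fun f hf => ?_).imp (coset_eq_one hn).2 fun c => ?_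
    · rw [← coset_eq_iff hn (n1 (mul_mem (mul_mem hf he) (inv_mem hf))), ← cj e he f hf, c _ (mem_quotient (n1 hf) hf)]
    · rw [eq_comm, coset_eq_iff (n1 zU) hn, inv_eq_of_mul_eq_one_left h.z2]; exact c
  · obtain ⟨u, hu, hn, rfl⟩ := mem_quotient_iff.1 h1
    obtain ⟨x, hx, hn', e⟩ := mem_quotient_iff.1 h2
    have m := (coset_eq_iff hn' hn).1 e
    rcases hA with hA | hA
    · have : x ∈ U := by simpa using mul_mem hu (inv_mem (hA m))
      rw [← e, h.hd x (hU this) hx, coset_one]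
    · have : u ∈ H := by simpa using mul_mem hx (hA m)
      rw [h.hd u (hU hu) this, coset_one]
  · rw [← coprime_quotient_cent' n1 (h.KH.trans n2) (h.KH.trans nU) (cop (h.pg.to_le hU) h.odd)
      (.inr (pgroup_sol (h.pg.to_le hU))), ← quotient_zpowers (n1 zU)]
    exact quotientS A ((inf_le_inf_right _ hU).trans h.fx)

end St

theorem ext_quo (zU : z ∈ U) (nA : U ⊔ H ≤ N[A]) (h : Ext (U /ᵍ A ⊔ H /ᵍ A) (coset A z) n) : Ext (U ⊔ H) z n := by
  refine Ext.inf ((qmk A).comp (inclusion nA)) (fun x => ?_) (mem_sup_left zU) (coset_eq (nA (mem_sup_left zU)) ▸ h)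
  rw [← quotientY (le_sup_left.trans nA) (le_sup_right.trans nA)]
  exact ⟨_, x.2, rfl⟩

end Cfsg.Agent.DadeX
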