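import Cfsg.Agent.DadeX.B
import Cfsg.Agent.S0205

/-! Dade's extension theorem for extraspecial 2-groups: the induction (`St.ext`). -/

set_option autoImplicit false
set_option linter.unusedSectionVars false

namespace Cfsg.Agent.DadeX

open Subgroup Cfsg.Agent.BG

universe u
variable {G : Type u} [Group G] [Finite G] {E H K U R P B : Subgroup G} {z : G}

/-- The induction hypothesis. -/
def IH (n : ℕ) : Prop := ∀ (G : Type u) [Group G] [Finite G] (E H K : Subgroup G) (z : G), St E H K z →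
  #E * #H < n → Ext (E ⊔ H) z #E

namespace St
variable (h : St E H K z)
include h

theorem case_ker (ih : IH.{u} (#E * #H)) (h0 : H ⊓ C[E] ≠ ⊥) : Ext (E ⊔ H) z #E := by
  have nA : E ⊔ H ≤ N[(H ⊓ C[E] : Subgroup G)] :=
    sup_le (cents_norm (cents_symm inf_le_right)) (normsI (normG H) (norms_cent h.hn))
  have e : #(E /ᵍ (H ⊓ C[E])) = #E := card_quotient_TI (le_sup_left.trans nA)
    (eq_bot_iff.2 fun x hx => h.hd x hx.2 hx.1.1)
  have s := h.quo le_rfl h.zE h.hn nA (.inr inf_le_left) (fun c => h.z1 (h.hd z h.zE c.1)) fun x hx c => by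
    rcases h.cen x hx fun f hf => (inv_mul_eq_one.1 (h.hd _ (mul_mem (inv_mem hx) (mul_mem (mul_mem hf hx) (inv_mem hf)))
      (c f hf).1)).symm with rfl | rfl
    · exact .inl (one_mem _)
    · exact .inr (h.z2 ▸ one_mem _)
  refine ext_quo h.zE nA (e ▸ ih _ _ _ _ _ s ?_)
  rw [e]
  exact Nat.mul_lt_mul_of_pos_left (ltn_quotient h0 inf_le_left) (cardG_pos E)

theorem case_ab (ih : IH.{u} (#E * #H)) (hR : R ≤ E) (hz : z ∈ R) (ab : R ≤ C[R]) (nR : H ≤ N[R])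
    (h0 : ¬ R ≤ zpowers z) : Ext (E ⊔ H) z #E := by
  have kR := h.KH.trans nR
  have co := cop (h.pg.to_le hR) h.odd
  have AR : ⁅R, K⁆ ≤ R := commg_subl kR
  have ZK := h.Zc (h.KH.trans h.hn)
  have ti := coprime_abel_cent_TI kR co (abelian_iff.2 ab)
  have e1 : ⁅R, K⁆ ⊔ zpowers z = R := le_antisymm (sup_le AR (zpowers_le.2 hz))
    ((coprime_cent_prod kR co (pgroup_sol (h.pg.to_le hR))).ge.trans
      (sup_le_sup_left ((inf_le_inf_right _ hR).trans h.fx) _))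
  have zA : z ∉ ⁅R, K⁆ := fun c => h.z1 (mem_bot.1 (ti.le ⟨c, ZK (mem_zpowers z)⟩))
  have c1 : #R = #⁅R, K⁆ * 2 := by
    rw [← h.card_Z, ← card_sup_mul_inf (.inr (cents_norm (h.Zc ((AR.trans hR).trans (normG E))))), e1,
      eq_bot_mono (inf_le_inf_left _ ZK) ti, card_bot, mul_one]
  have c2 := h.card_perp hR hz
  set A := ⁅R, K⁆
  set U := E ⊓ C[R] with hU
  have AU : A ≤ U := AR.trans (le_inf hR ab)
  have nU : H ≤ N[U] := normsI h.hn (norms_cent nR)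
  have nA : U ⊔ H ≤ N[A] := sup_le (cents_norm (inf_le_right.trans (centS AR))) (normsR nR h.nK)
  have zU := h.z_perp hR
  have s := h.quo inf_le_left zU nU nA (.inl AU) zA fun e he c => by
    have m : e ∈ R := h.perp_perp hR hz ▸ ⟨he.1, mem_cent.2 fun f hf => mul_inv_eq_iff_eq_mul.1
      ((h.com e he.1 f hf.1).resolve_right fun e2 => zA (by
        have := c f hf
        rwa [e2, h.zc e he.1, inv_mul_cancel_left] at this))⟩
    obtain ⟨a, ha, y, hy, rfl⟩ := (mem_sup_norml (cents_norm (h.Zc ((AR.trans hR).trans (normG E))))).1 (e1 ▸ m)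
    rcases h.mem_Z.1 hy with rfl | rfl
    · exact .inl (by simpa using ha)
    · exact .inr (by rwa [← mul_assoc, h.zc a (hR (AR ha)), mul_assoc, h.z2, mul_one])
  have c3 := card_mul_quotient (N := A) (M := U) ⟨AU, le_sup_left.trans nA⟩
  have c4 : #A * #U = #E := by nlinarith
  have a1 : 1 < #A := cardG_gt1 fun e => h0 (by rw [← e1, e, bot_sup_eq])
  have x := ext_quo zU nA (ih _ _ _ _ _ s (by
    have := leq_quotient H A
    have := leq_quotient U A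
    have := cardG_pos H
    have := cardG_pos U
    calc _ ≤ #U * #H := Nat.mul_le_mul ‹_› ‹_›
      _ < _ := Nat.mul_lt_mul_of_pos_right (by nlinarith) ‹_›))
  have le : U ⊔ H ≤ E ⊔ H := sup_le_sup_right inf_le_left _
  have c5 : (U ⊔ H).relIndex (E ⊔ H) = #A := by
    have := card_mul_relIndex le
    rw [h.card_sup inf_le_left le_rfl nU, h.card_sup le_rfl le_rfl h.hn, ← c4] at this
    exact Nat.eq_of_mul_eq_mul_left (Nat.mul_pos (cardG_pos U) (cardG_pos H)) (by rw [this]; ring)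
  have := x.ind le (mem_sup_left zU) fun g hg => h.fix (sup_le (normG E) h.hn hg)
  rwa [c5, show #(U /ᵍ A) * #A ^ 2 = #E by rw [← c4, ← c3]; ring] at this

theorem case_red (ih : IH.{u} (#E * #H)) (hU : U ≤ E) (hz : z ∈ U) (nU : H ≤ N[U]) (h0 : ¬ U ≤ zpowers z)
    (h1 : U ≠ E) : Ext (E ⊔ H) z #E := by
  by_cases hc : U ⊓ C[U] ≤ zpowers z
  swap
  · exact h.case_ab ih (inf_le_left.trans hU) ⟨hz, (h.z_perp hU).2⟩ (inf_le_right.trans (centS inf_le_left))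
      (normsI nU (norms_cent nU)) hc
  have d := h.dec hU hz hc
  have nV : H ≤ N[(E ⊓ C[U] : Subgroup G)] := normsI h.hn (norms_cent nU)
  obtain ⟨χ₁, g1⟩ := ih _ _ _ _ _ (h.sub hU (d.xs h.toXS) le_rfl h.KH nU)
    (Nat.mul_lt_mul_of_pos_right (proper_card (hU.lt_of_ne h1)) (cardG_pos H))
  obtain ⟨χ₂, g2⟩ := ih _ _ _ _ _ (h.sub inf_le_left (d.symm.xs h.toXS) le_rfl h.KH nV)
    (Nat.mul_lt_mul_of_pos_right (proper_card (inf_le_left.lt_of_ne fun e => h0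
      ((le_inf hU (e ▸ d.cc)).trans h.cenZ))) (cardG_pos H))
  exact (d.prod h.toXS h.hd nU nV g1 g2).imp fun _ c => c.1

theorem ext_odd {H₀ : Subgroup G} (h0 : H₀ ≤ H) (ho : ¬ 2 ∣ H₀.relIndex H) (hx : Ext (E ⊔ H₀) z #E) :
    Ext (E ⊔ H) z #E := by
  have le : E ⊔ H₀ ≤ E ⊔ H := sup_le_sup_left h0 _
  refine h.ext_syl le_sup_left le (sup_le (normG E) h.hn) ?_ hx
  have := card_mul_relIndex le
  rw [h.card_sup le_rfl h0 (h0.trans h.hn), h.card_sup le_rfl le_rfl h.hn, ← card_mul_relIndex h0, ← mul_assoc] at this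
  rwa [Nat.eq_of_mul_eq_mul_left (Nat.mul_pos (cardG_pos E) (cardG_pos H₀)) this]

theorem case_cyc (hP : P ≤ H) (hc : IsCyclic P) : Ext (E ⊔ P) z #E := by
  obtain ⟨s, hs⟩ := IsCyclic.exists_generator (α := P)
  obtain ⟨χ, hg⟩ := h.ext0
  have n : E ⊔ P ≤ N[E] := sup_le (normG E) (hP.trans h.hn)
  refine h.ext_cyc le_rfl le_sup_left n hg (fun g c x hx => h.inv hg (n c) hx) (mem_sup_right s.2) fun g c => ?_
  obtain ⟨p, hp, e, he, rfl⟩ := (mem_sup_normr (hP.trans h.hn)).1 (sup_comm E P ▸ c)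
  obtain ⟨k, hk⟩ := hs ⟨p, hp⟩
  exact ⟨k, by rw [show (s : G) ^ k = p from congrArg Subtype.val hk, inv_mul_cancel_left]; exact he⟩

theorem comm_cj (ab : K ≤ C[K]) (hB : B ≤ K) (mx : ∀ X, B < X → X ≤ K → E ⊓ C[X] ≤ zpowers z) {g : G} (hg : g ∈ H)
    (hn : g ∉ N[B]) : cj g (E ⊓ C[B]) ≤ C[(E ⊓ C[B] : Subgroup G)] := by
  have hB' : cj g B ≤ K := cj_le_of_norm (h.nK hg) hB
  have e : cj g (E ⊓ C[B]) = E ⊓ C[cj g B] := by rw [cj_inf, cj_of_norm (h.hn hg), C_cj]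
  have nE : B ≤ N[E] := hB.trans (h.KH.trans h.hn)
  have n : B ≤ N[(E ⊓ C[cj g B] : Subgroup G)] := normsI nE (norms_cent (cents_norm (centSS hB' hB ab)))
  have m := mx (B ⊔ cj g B) (left_lt_sup.2 fun c => hn (mem_norm_of_cj_le c)) (sup_le hB hB')
  rw [e, ← coprime_cent_prod n (cop (h.pg.to_le inf_le_left) (h.odd.of_dvd_nat (card_dvd_of_le hB)))
    (pgroup_sol (h.pg.to_le inf_le_left))]
  refine sup_le (commG1.1 (three_subgroup ?_ ?_)) (le_trans ?_ (h.Zc (inf_le_left.trans (normG E))))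
  · rw [commG1'.2 inf_le_right, commutator_bot_left]
  · exact commG1.2 (((commutator_mono inf_le_left inf_le_left).trans h.comZ).trans (h.Zc nE))
  · refine le_trans ?_ m
    rw [cent_sup]
    exact le_inf (inf_le_left.trans inf_le_left) (le_inf inf_le_right (inf_le_left.trans inf_le_right))

theorem case_swap (ih : IH.{u} (#E * #H)) (irr : ∀ U ≤ E, z ∈ U → H ≤ N[U] → U ≤ zpowers z ∨ U = E)
    (ab : K ≤ C[K]) (hP : IsPGroup 2 P) (hH : K ⊔ P = H) (hB : B ≤ K) (h0 : ¬ E ⊓ C[B] ≤ zpowers z)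
    (mx : ∀ X, B < X → X ≤ K → E ⊓ C[X] ≤ zpowers z) (hn : ¬ P ≤ N[B]) : Ext (E ⊔ H) z #E := by
  have PH : P ≤ H := hH ▸ le_sup_right
  obtain ⟨P₀, p1, p2, p3⟩ := maximal_exists (show P ⊓ N[B] < P from inf_lt_left.2 hn)
  have hi : P₀.relIndex P = 2 := p_maximal_index hP ⟨p2, p3⟩
  have nP : P ≤ N[P₀] := (nil_maximal_normal (pgroup_nil hP) ⟨p2, p3⟩).norm
  obtain ⟨s, hs, hs0⟩ := SetLike.exists_of_lt p2
  have mm : ∀ a ∈ P, ∀ b ∈ P, a ∉ P₀ → b ∉ P₀ → a * b ∈ P₀ := fun a ha b hb c1 c2 =>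
    (mul_mem_iff_of_index_two (H := P₀.subgroupOf P) hi (a := ⟨a, ha⟩) (b := ⟨b, hb⟩)).2 (iff_of_false c1 c2)
  set D := E ⊓ C[B] with hD
  have DE : ∀ g ∈ H, cj g D ≤ E := fun g hg => cj_le_of_norm (h.hn hg) inf_le_left
  let E₁ : Subgroup G := ⨆ g : P₀, cj g.1 D
  have D1 : D ≤ E₁ := le_iSup_of_le (1 : P₀) (by simp)
  have E1 : E₁ ≤ E := iSup_le fun g => DE g (PH (p2.le g.2))
  have H0 : K ⊔ P₀ ≤ H := sup_le h.KH (p2.le.trans PH)
  have n0 : P ≤ N[(K ⊔ P₀ : Subgroup G)] := normsY (PH.trans h.nK) nP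
  have zD : z ∈ D := ⟨h.zE, h.Zc (hB.trans (h.KH.trans h.hn)) (mem_zpowers z)⟩
  have n1 : K ⊔ P₀ ≤ N[E₁] := sup_le (fun k hk => mem_norm_of_cj_le (by
      rw [cj_iSup]
      refine iSup_mono fun g => le_of_eq (cj_of_norm ?_)
      have m := PH (p2.le g.2)
      rw [hD, cj_inf, cj_of_norm (h.hn m), ← C_cj]
      exact normsI (h.KH.trans h.hn) (norms_cent (cents_norm (centSS (cj_le_of_norm (h.nK m) hB) le_rfl ab))) hk))
    fun k hk => mem_norm_of_cj_le (by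
      rw [cj_iSup]
      exact iSup_le fun g => le_iSup_of_le (⟨k, hk⟩ * g) (by rw [← cj_mul]; exact le_rfl))
  have n2 : K ⊔ P₀ ≤ N[cj s E₁] := by
    rw [N_cj, ← cj_of_norm (n0 hs)]; exact cj_le_cj.2 n1
  have ss : s * s ∈ K ⊔ P₀ := mem_sup_right (mm s hs s hs hs0 hs0)
  have e2 : cj s (cj s E₁) = E₁ := by rw [← cj_mul, cj_of_norm (n1 ss)]
  have cc : E₁ ≤ C[cj s E₁] := iSup_le fun g => cents_symm (by
    rw [cj_iSup]
    refine iSup_le fun g' => ?_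
    have m : g.1⁻¹ * (s * g') ∈ P := mul_mem (inv_mem (p2.le g.2)) (mul_mem hs (p2.le g'.2))
    have := h.comm_cj ab hB mx (PH m) fun c => hs0 (by
      simpa using mul_mem (mul_mem g.2 (p1 ⟨m, c⟩)) (inv_mem g'.2))
    rw [← cj_mul, C_cj, ← cj_le_cj (g := g.1⁻¹), ← cj_mul, ← cj_mul, inv_mul_cancel, cj_one]
    exact this)
  have E2 : cj s E₁ ≤ E := cj_le_of_norm (h.hn (PH hs)) E1
  have z2 : z ∈ cj s E₁ := h.fix (h.hn (PH hs)) ▸ conj_mem_cj s (D1 zD)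
  have dec : ∀ g ∈ H, g ∈ K ⊔ P₀ ∨ s⁻¹ * g ∈ K ⊔ P₀ := fun g hg => by
    obtain ⟨p, hp, k, hk, rfl⟩ := (mem_sup_normr (PH.trans h.nK)).1 (sup_comm K P ▸ hH ▸ hg)
    by_cases c : p ∈ P₀
    · exact .inl (mul_mem (mem_sup_right c) (mem_sup_left hk))
    · exact .inr (mul_assoc _ p k ▸ mul_mem (mem_sup_right (mm _ (inv_mem hs) p hp (by simpa using hs0) c)) (mem_sup_left hk))
  have d : Dec E E₁ (cj s E₁) z := ⟨D1 zD, z2, cc, (irr _ (sup_le E1 E2) (mem_sup_left (D1 zD)) fun g hg => by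
    have ns : s ∈ N[(E₁ ⊔ cj s E₁ : Subgroup G)] := mem_norm.2 (by rw [cj_sup, e2, sup_comm])
    rcases dec g hg with c | c
    · exact normsY n1 n2 c
    · simpa using mul_mem ns (normsY n1 n2 c)).resolve_left fun c => h0 (D1.trans (le_sup_left.trans c))⟩
  obtain ⟨χ₁, g1⟩ := ih _ _ _ _ _ (h.sub E1 (d.xs h.toXS) H0 le_sup_left n1) (Nat.mul_lt_mul_of_lt_of_le
    (proper_card (E1.lt_of_ne fun e => h0 (by
      have : cj s E₁ ≤ zpowers z := (le_inf E2 (e ▸ cents_symm cc)).trans h.cenZ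
      rw [e, cj_of_norm (h.hn (PH hs))] at this
      exact inf_le_left.trans this))) (card_le_card H0) (cardG_pos H))
  have mem : ∀ x ∈ cj s E₁ ⊔ (K ⊔ P₀), s⁻¹ * x * s ∈ E₁ ⊔ (K ⊔ P₀) := fun x hx => by
    rw [← mem_cj, cj_sup, cj_of_norm (n0 hs)]; exact hx
  have g2 : Gd (cj s E₁ ⊔ (K ⊔ P₀)) z #(cj s E₁) fun x => χ₁ (s⁻¹ * x * s) :=
    ⟨g1.ch.comp (((MulAut.conj s).symm.toMonoidHom.comp (Subgroup.subtype _)).codRestrict _ fun x => mem x x.2),
      by have := h.fix (h.hn (PH (inv_mem hs))); rw [inv_inv] at this; simp only [this, g1.hz]; simp,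
      by simpa using g1.deg⟩
  obtain ⟨χ, c1, c2, c3⟩ := d.prod h.toXS (fun x a b => h.hd x a (H0 b)) n1 n2 g1 g2
  have nN : P ≤ N[(E ⊔ (K ⊔ P₀) : Subgroup G)] := normsY (PH.trans h.hn) n0
  have dec' : ∀ g ∈ E ⊔ H, g ∈ E ⊔ (K ⊔ P₀) ∨ s⁻¹ * g ∈ E ⊔ (K ⊔ P₀) := fun g hg => by
    obtain ⟨x, hx, e, he, rfl⟩ := (mem_sup_normr h.hn).1 (sup_comm E H ▸ hg)
    exact (dec x hx).imp (fun c => mul_mem (mem_sup_right c) (mem_sup_left he))
      fun c => mul_assoc _ x e ▸ mul_mem (mem_sup_right c) (mem_sup_left he)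
  have is : ∀ x ∈ E ⊔ (K ⊔ P₀), χ (s * x * s⁻¹) = χ x := fun x hx => by
    obtain ⟨a, ha, b, hb, y, hy, rfl⟩ := c3 x hx
    have m1 : s * b * s⁻¹ ∈ E₁ := e2 ▸ conj_mem_cj s hb
    have m2 := conj_mem_cj s ha
    have e : s * (a * b * y) * s⁻¹ = s * b * s⁻¹ * (s * a * s⁻¹) * (s * y * s⁻¹) := by
      rw [le_cent_iff.1 cc a ha b hb]; group
    rw [e, c2 _ m1 _ m2 _ ((mem_normalizer_iff.1 (n0 hs) y).1 hy), c2 a ha b hb y hy, mul_comm,
      ← g1.cj (mem_sup_right ss) (mem _ (mul_mem_sup hb hy))]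
    congr 2 <;> group
  refine h.ext_cyc le_sup_left (sup_le_sup_left H0 _) (sup_le (le_sup_left.trans (normG _))
    (hH ▸ sup_le ((le_sup_left.trans le_sup_right).trans (normG _)) nN)) c1 (fun g hg x hx => ?_)
    (mem_sup_right (PH hs)) fun g hg => ?_
  · rcases dec' g hg with c | c
    · exact c1.cj c hx
    · rw [← c1.cj c hx, ← is _ (mul_mem (mul_mem c hx) (inv_mem c))]
      congr 1; group
  · exact (dec' g hg).elim (fun c => ⟨0, by simpa using c⟩) fun c => ⟨1, by simpa using c⟩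

theorem step (ih : IH.{u} (#E * #H)) : Ext (E ⊔ H) z #E := by
  by_cases h0 : H ⊓ C[E] = ⊥
  swap
  · exact h.case_ker ih h0
  by_cases irr : ∀ U ≤ E, z ∈ U → H ≤ N[U] → U ≤ zpowers z ∨ U = E
  swap
  · push Not at irr
    obtain ⟨U, u1, u2, u3, u4, u5⟩ := irr
    exact h.case_red ih u1 u2 u3 u4 u5
  have fa : ∀ X ≤ H, X ≤ C[E] → X = ⊥ := fun X a b => eq_bot_mono (le_inf a b) h0
  by_cases hE : E ≤ zpowers z
  · rw [fa H le_rfl (cents_symm (hE.trans (h.Zc h.hn))), sup_bot_eq]; exact h.ext0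
  have ce : ∀ X ≤ H, H ≤ N[X] → X ≠ ⊥ → E ⊓ C[X] ≤ zpowers z := fun X a b c =>
    (irr _ inf_le_left ⟨h.zE, h.Zc (a.trans h.hn) (mem_zpowers z)⟩ (normsI h.hn (norms_cent b))).resolve_right
      fun e => c (fa X a (cents_symm (inf_eq_left.1 e)))
  obtain ⟨V, q, v1, v2, v3, hq, v4⟩ := solvable_norm_abelem (S0205.result h.odd)
    (fun e => hE (le_trans (by simp [e]) h.fx)) h.nK
  have VH := v1.trans h.KH
  have hV : St E H V z := ⟨h.toXS, h.hn, h.hd, VH, v2, h.odd.of_dvd_nat (card_dvd_of_le v1), ce V VH v2 v3⟩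
  obtain ⟨P, hP⟩ := Sylow_exists 2 H
  by_cases hH : V ⊔ P = H
  swap
  · have le : V ⊔ P ≤ H := sup_le VH hP.le
    exact h.ext_odd le (fun c => hP.not_dvd (c.trans (relIndex_dvd_of_le_left _ le_sup_right)))
      (ih _ _ _ _ _ (hV.sub le_rfl h.toXS le le_sup_left (le.trans h.hn))
        (Nat.mul_lt_mul_of_pos_left (proper_card (le.lt_of_ne hH)) (cardG_pos E)))
  by_cases hc : IsCyclic V
  · refine h.ext_odd hP.le hP.not_dvd (h.case_cyc hP.le ?_)
    have p0 : P ⊓ C[V] = ⊥ := by_contra fun c => v3 (fa V VH (PxQ_lemma (P := P ⊓ C[V]) (pgroup_nil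
      (h.pg.to_sup_of_normal_left' (hP.pg.to_le inf_le_left) ((inf_le_left.trans hP.le).trans h.hn)))
      (cop h.pg hV.odd) inf_le_right ((inf_le_left.trans hP.le).trans h.hn) (VH.trans h.hn)
      ((ce _ (inf_le_left.trans hP.le) (hH ▸ sup_le (cents_norm (cents_symm inf_le_right))
        (normsI (normG P) (norms_cent (hP.le.trans v2)))) c).trans (h.Zc (VH.trans h.hn)))))
    haveI := Fact.mk hq
    have h1 : IsCyclic (MulAut V) := by
      have e := IsCyclic.mulAutMulEquiv V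
      rw [cyclic_abelem_prime hq v4 hc v3] at e
      exact isCyclic_of_surjective e.symm e.symm.surjective
    refine isCyclic_of_injective (V.normalizerMonoidHom.comp (inclusion (hP.le.trans v2)))
      ((injective_iff_map_eq_one _).2 fun x hx => Subtype.ext (mem_bot.1 (p0.le ⟨x.2, ?_⟩)))
    refine mem_cent.2 fun a ha => ?_
    have : x.1 * a * x.1⁻¹ = a := congrArg Subtype.val (DFunLike.congr_fun hx (⟨a, ha⟩ : V))
    exact (mul_inv_eq_iff_eq_mul.1 this).symm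
  have ab : V ≤ C[V] := abelian_iff.1 v4.1
  obtain ⟨a, a1, a2, a3⟩ : ∃ a ∈ V, a ≠ 1 ∧ ¬ E ⊓ C1[a] ≤ zpowers z := by
    by_contra! c
    exact hE (coprime_abelian_gen_cent1 v4.1 hc (VH.trans h.hn) (cop h.pg hV.odd) c)
  obtain ⟨B, b1, b2⟩ := Finite.exists_le_maximal (p := fun X : Subgroup G => X ≤ V ∧ ¬ E ⊓ C[X] ≤ zpowers z)
    (a := zpowers a) ⟨zpowers_le.2 a1, C_zpowers a ▸ a3⟩
  refine hV.case_swap ih irr ab hP.pg hH b2.1.1 b2.1.2 (fun X x1 x2 => by_contra fun c => x1.not_ge (b2.2 ⟨x2, c⟩ x1.le))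
    fun c => b2.1.2 (ce B (b2.1.1.trans VH) (hH ▸ sup_le (cents_norm (ab.trans (centS b2.1.1))) c) fun e => a2 ?_)
  exact mem_bot.1 (e ▸ b1 (mem_zpowers a))

end St

theorem St.ext (h : St E H K z) : Ext (E ⊔ H) z #E := by
  have key : ∀ n, IH.{u} n := fun n => by
    induction n using Nat.strong_induction_on with
    | _ n ih => exact fun G _ _ E H K z h c => h.step (ih _ c)
  exact h.step (key _)

end Cfsg.Agent.DadeX
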